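import Cfsg.Agent.Lib.AltModule.P2.M0.Def
import Cfsg.Agent.Lib.AltModule.P2.M1.Def

/-!
Checks for piece 5 of the certificate.
-/

namespace Cfsg.Agent.AltMod.P2.M0

def c5_0 : List (ℕ) := [0x100010001000100010000000000010001000000010001000100010000000100010001000100000000,
  0x100010001000100010001000000010001000100010001000000000001000000010000000100000000,
  0x10001000100010000000000000000000000010001000000010001000000000001000100000001,
  0x10001000100000001000000000000000100000001000100000001000000010001000000010001]

def c5_1 : List (ℕ) := [0x100000001000000010001000100000000000100000000000000000001,
  0x10000000000000000000000010000000000000001000100000000000100000000,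
  0x1000000000001000000010000000000000001000100010000000100010000000000010001,
  0x10000000100010001000000000001000100010000000000010000000000000000000100000000]

def c5_2 : List (ℕ) := [0x100010001000100000000000000010000000100010000000000010001000100000001,
  0x1000000010001000000010000000100010000000000000001000000010001,
  0x10001000100010001000100010001000000010000000000010001000100010001000100000001,
  0x1000000000001000100010000000000010001000100010000000000010001]

def c5_3 : List (ℕ) := [0x10001000000000001000100010000000000010001000100000001000000010001,
  0,
  0x10001000000010000000000000000000000000001000000010000000100010000000000010001,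
  0x1000000000001000100010000000000010001000100000001000000010001]

def c5 : List (List ℕ) := [c5_0, c5_1, c5_2, c5_3]

theorem fac5_0 : mdl.factorOk 2 M1.mdl pc5 k5 0 c5_0 = true := by
  decide +kernel

theorem fac5_1 : mdl.factorOk 2 M1.mdl pc5 k5 1 c5_1 = true := by
  decide +kernel

theorem fac5_2 : mdl.factorOk 2 M1.mdl pc5 k5 2 c5_2 = true := by
  decide +kernel

theorem fac5_3 : mdl.factorOk 2 M1.mdl pc5 k5 3 c5_3 = true := by
  decide +kernel

end Cfsg.Agent.AltMod.P2.M0
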