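import Cfsg.Agent.Lib.AltModule.P2.M0.Def
import Cfsg.Agent.Lib.AltModule.P2.M6.Def

/-!
Checks for piece 7 of the certificate.
-/

namespace Cfsg.Agent.AltMod.P2.M0

def c7_0 : List (ℕ) := [0x10000000000000001000000000001000000010001000100010000000100000000000000000000000000000000000000000000000000000000000000000000000000000000000000000000000000000000,
  0x1000100000000000100000000000000010000000000010000000000010000000000000000000000000000000000000000000000000000000000000000000000000000000000000000000000000000,
  0x10001000000010000000000000001000100000001000000000000000000000000000000000000000000000000000000000000000000000000000000000000000000000000000000000000000000000000,
  0x1000000010000000100010001000100010001000100000000000000000000000000000000000000000000000000000000000000000000000000000000000000000000000000000000]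

def c7_1 : List (ℕ) := [0x10001000000010001000100000001000000000000000000010001000000000000000100010001000100000000000000010000000000000000000100000000000100000001000100000001000100000000,
  0x10001000100000001000000000000000000010001000100000001000100010000000100010001000000010001000100010001000000000000000100010001000100000000000100000000000100000001,
  0x100000001000000000000000000000001000000000000000100010001000100000000000000010001000000010001000100010000000000010001000100010000000100010001,
  0x10000000000000000000100010000000100000000000000000000000000000000000100010001000100000000000000010001000000010001000100010000000000010001000100010000000100010001]

def c7_2 : List (ℕ) := [0x1000100010000000100000001000100010000000000010001000000010000000000000000000000000000000000000000000000000000000000000000000000000000000000000000000000000000,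
  0x1000100000001000100000000000000000001000100000000000100010000000000000000000000000000000000000000000000000000000000000000000000000000000000000000000000000000,
  0x10001000000000001000100010001000100010001000100000000000000000000000000000000000000000000000000000000000000000000000000000000000000000000000000000000,
  0x100000000000100000001000000010001000000010001000000010000000000000000000000000000000000000000000000000000000000000000000000000000000000000000000000000000]

def c7_3 : List (ℕ) := [0x1000100000001000000000001000000000000000000000000000000000000000000000000000000000000000000000000000000000000000000000000000000000000,
  0x10001000000010001000000010000000100010001000100010000000100000000000000000000000000000000000000000000000000000000000000000000000000000000000000000000000000000000,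
  0x10001000100000001000100010001000100000001000100000000000100010000000000000000000000000000000000000000000000000000000000000000000000000000000000000000000000000000,
  0x10001000000010001000000010000000100010001000100010000000100000000000000000000000000000000000000000000000000000000000000000000000000000000000000000000000000000000]

def c7 : List (List ℕ) := [c7_0, c7_1, c7_2, c7_3]

theorem fac7_0 : mdl.factorOk 2 M6.mdl pc7 k7 0 c7_0 = true := by
  decide +kernel

theorem fac7_1 : mdl.factorOk 2 M6.mdl pc7 k7 1 c7_1 = true := by
  decide +kernel

theorem fac7_2 : mdl.factorOk 2 M6.mdl pc7 k7 2 c7_2 = true := by
  decide +kernel

theorem fac7_3 : mdl.factorOk 2 M6.mdl pc7 k7 3 c7_3 = true := by
  decide +kernel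

end Cfsg.Agent.AltMod.P2.M0
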