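import Cfsg.Agent.Lib.AltModule.P2.M0.Def

/-!
Checks for piece 0 of the certificate.
-/

namespace Cfsg.Agent.AltMod.P2.M0

theorem fix0_1 : mdl.fixOk 2 ((subs.getD 0 ([], [])).1) v0 k0 0 = true := by
  decide +kernel

theorem fix0_2 : mdl.fixOk 2 ((subs.getD 0 ([], [])).2) v0 k0 0 = true := by
  decide +kernel

theorem spin0_0 : mdl.spinOk 2 v0 e0 0 4 = true := by decide +kernel

theorem spin0_len : e0.length = 4 := by decide +kernel

theorem spin0 : ∀ i < (e0.length + 49) / 50,
    mdl.spinOk 2 v0 e0 (50 * i) (min 50 (e0.length - 50 * i)) = true := by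
  rw [spin0_len]
  intro i hi
  interval_cases i
  · exact spin0_0

end Cfsg.Agent.AltMod.P2.M0
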